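import Mathlib
import Cfsg.Agent.BinaryPSL.Basic
import Cfsg.Prelude.Def_Involutions

/-!
Binary coset actions of simple groups with one class of involutions: commuting involutions have
the same fixed points.
-/

set_option autoImplicit false

namespace CfsgLib.BinaryOneClass

open Cfsg CfsgLib.BinaryPSL

variable {G : Type*} [Group G]

/-- Binarity, for a set of points and a map. -/
theorem exists_smul_eq_of_pairs [Finite G] {H : Subgroup G} (hbin : IsBinary H) {S : Set (G ⧸ H)}
    {p₀ : G ⧸ H} (hp₀ : p₀ ∈ S) (f : G ⧸ H → G ⧸ H)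
    (hp : ∀ p ∈ S, ∀ p' ∈ S, ∃ g : G, g • p = f p ∧ g • p' = f p') :
    ∃ g : G, ∀ p ∈ S, g • p = f p := by
  obtain ⟨m, ⟨e⟩⟩ := Finite.exists_equiv_fin S
  let I : Fin (m + 2) → G ⧸ H := Fin.append (fun i : Fin m => (e.symm i : G ⧸ H)) (fun _ => p₀)
  have hI : ∀ i, I i ∈ S := fun i => by
    induction i using Fin.addCases with
    | left i => simp [I]
    | right i => simp [I, hp₀]
  obtain ⟨g, hg⟩ := hbin (m + 2) I (fun i => f (I i)) (by omega) fun i j _ => hp _ (hI i) _ (hI j)
  refine ⟨g, fun p hpS => ?_⟩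
  have h := hg (Fin.castAdd 2 (e ⟨p, hpS⟩))
  simpa [I] using h

variable [Finite G] [IsSimpleGroup G] {H : Subgroup G}

theorem normalCore_eq_bot (hH : H ≠ ⊤) : H.normalCore = ⊥ :=
  (Subgroup.normalCore_normal H).eq_bot_or_eq_top.resolve_right fun h =>
    hH (top_le_iff.mp (h ▸ Subgroup.normalCore_le H))

theorem exists_orderOf_two_mem (heven : Even (Nat.card H)) : ∃ z ∈ H, orderOf z = 2 := by
  haveI : Fact (Nat.Prime 2) := ⟨Nat.prime_two⟩
  obtain ⟨z, hz⟩ := exists_prime_orderOf_dvd_card' (G := H) 2 heven.two_dvd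
  exact ⟨z, z.2, by rwa [Subgroup.orderOf_coe]⟩

variable (H) in
/-- The fixed points of an element. -/
def fixSet (x : G) : Set (G ⧸ H) := {p | x • p = p}

theorem fixSet_conj (g x : G) : fixSet H (g * x * g⁻¹) = (g • ·) '' fixSet H x := by
  ext p
  simp only [fixSet, Set.mem_image, Set.mem_setOf_eq]
  constructor
  · intro h
    refine ⟨g⁻¹ • p, ?_, smul_inv_smul g p⟩
    rw [eq_inv_smul_iff, ← mul_smul, ← mul_smul]
    exact h
  · rintro ⟨q, hq, rfl⟩
    rw [mul_smul, inv_smul_smul, mul_smul, hq]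

variable (hone : ∀ s t : G, orderOf s = 2 → orderOf t = 2 → IsConj s t)

include hone in
theorem ncard_fixSet_eq {u w : G} (hu : orderOf u = 2) (hw : orderOf w = 2) :
    (fixSet H u).ncard = (fixSet H w).ncard := by
  obtain ⟨g, rfl⟩ := isConj_iff.1 (hone u w hu hw)
  rw [fixSet_conj, Set.ncard_image_of_injective _ (MulAction.injective g)]

include hone in
theorem fixSet_nonempty (heven : Even (Nat.card H)) {u : G} (hu : orderOf u = 2) :
    (fixSet H u).Nonempty := by
  obtain ⟨z, hzH, hz⟩ := exists_orderOf_two_mem heven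
  obtain ⟨g, rfl⟩ := isConj_iff.1 (hone z u hz hu)
  rw [fixSet_conj]
  refine ⟨g • ((1 : G) : G ⧸ H), _, ?_, rfl⟩
  show z • ((1 : G) : G ⧸ H) = _
  rw [mk_smul_eq_iff]
  simpa using hzH

include hone in
/-- Commuting involutions have the same fixed points. -/
theorem fixSet_eq (hbin : IsBinary H) (heven : Even (Nat.card H)) {u w : G}
    (hu : orderOf u = 2) (hw : orderOf w = 2) (hc : Commute u w) :
    fixSet H u = fixSet H w := by
  classical
  by_cases huw : u = w
  · rw [huw]
  have hu2 : u * u = 1 := by rw [← pow_two, ← hu, pow_orderOf_eq_one]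
  have hw2 : w * w = 1 := by rw [← pow_two, ← hw, pow_orderOf_eq_one]
  have hv : orderOf (u * w) = 2 := orderOf_eq_prime
    (by rw [hc.mul_pow, pow_two, pow_two, hu2, hw2, one_mul]) fun h => huw (by
      rw [eq_inv_of_mul_eq_one_left h]; exact inv_eq_of_mul_eq_one_right hw2)
  haveI : Finite (G ⧸ H) := inferInstance
  set A := fixSet H u with hA
  set B := fixSet H w with hB
  set C := fixSet H (u * w) with hC
  have hAC : A ∩ C = A ∩ B := by
    ext p
    simp only [hA, hB, hC, fixSet, Set.mem_inter_iff, Set.mem_setOf_eq]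
    refine and_congr_right fun h => ?_
    rw [hc.eq, mul_smul, h]
  have hBC : B ∩ C ⊆ A := by
    intro p hp
    simp only [hA, hB, hC, fixSet, Set.mem_inter_iff, Set.mem_setOf_eq] at hp ⊢
    obtain ⟨h1, h2⟩ := hp
    rwa [mul_smul, h1] at h2
  by_contra hne
  have hAB : ¬ A ⊆ B := fun h => hne (Set.eq_of_subset_of_ncard_le h
    (ncard_fixSet_eq hone hw hu).le)
  obtain ⟨p₁, hp₁A, hp₁B⟩ := Set.not_subset.1 hAB
  -- the tuple
  let f : G ⧸ H → G ⧸ H := fun p => if p ∈ A then w • p else p
  have hfB : ∀ p ∈ B, f p = p := fun p hp => by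
    simp only [f]
    split
    · exact hp
    · rfl
  obtain ⟨g, hg⟩ := exists_smul_eq_of_pairs hbin (S := A ∪ B ∪ C) (Or.inl (Or.inl hp₁A)) f (by
    intro p hp p' hp'
    by_cases h : p ∈ A <;> by_cases h' : p' ∈ A
    · exact ⟨w, by simp [f, h], by simp [f, h']⟩
    · rcases hp' with (hp' | hp') | hp'
      · exact absurd hp' h'
      · exact ⟨w, by simp [f, h], by rw [hfB _ hp']; exact hp'⟩
      · refine ⟨u * w, ?_, ?_⟩
        · simp only [f, h, if_true]
          rw [hc.eq, mul_smul, show u • p = p from h]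
        · simp only [f, h', if_false]
          exact hp'
    · rcases hp with (hp | hp) | hp
      · exact absurd hp h
      · exact ⟨w, by rw [hfB _ hp]; exact hp, by simp [f, h']⟩
      · refine ⟨u * w, ?_, ?_⟩
        · simp only [f, h, if_false]
          exact hp
        · simp only [f, h', if_true]
          rw [hc.eq, mul_smul, show u • p' = p' from h']
    · exact ⟨1, by simp [f, h], by simp [f, h']⟩)
  have hg1 : g • p₁ = w • p₁ := by simpa [f, hp₁A] using hg p₁ (Or.inl (Or.inl hp₁A))
  have hwA : w • p₁ ∈ A := by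
    show u • w • p₁ = w • p₁
    rw [← mul_smul, hc.eq, mul_smul, show u • p₁ = p₁ from hp₁A]
  have hg2 : g • (w • p₁) = p₁ := by
    have := hg (w • p₁) (Or.inl (Or.inl hwA))
    simp only [f, hwA, if_true] at this
    rwa [← mul_smul w w, hw2, one_smul] at this
  -- the element has even order
  have heven' : 2 ∣ orderOf g := by
    by_contra hodd
    have hcop : (2 : ℕ).Coprime (orderOf g) := (Nat.prime_two.coprime_iff_not_dvd).2 hodd
    have hmem : g ∈ MulAction.stabilizer G p₁ := by
      obtain ⟨k, hk⟩ := exists_pow_eq_self_of_coprime hcop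
      rw [← hk]
      exact pow_mem (show g ^ 2 ∈ MulAction.stabilizer G p₁ by
        rw [MulAction.mem_stabilizer_iff, pow_two, mul_smul, hg1, hg2]) k
    rw [MulAction.mem_stabilizer_iff, hg1] at hmem
    exact hp₁B hmem
  set j := g ^ (orderOf g / 2) with hj
  have hj2 : orderOf j = 2 := orderOf_pow_orderOf_div (orderOf_pos g).ne' heven'
  have hfix : B ∪ C ⊆ fixSet H j := by
    intro p hp
    have hgp : g ∈ MulAction.stabilizer G p := by
      rw [MulAction.mem_stabilizer_iff]
      by_cases h : p ∈ B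
      · rw [hg p (Or.inl (Or.inr h)), hfB p h]
      · have hC' : p ∈ C := hp.resolve_left h
        rw [hg p (Or.inr hC')]
        have : p ∉ A := fun hpA => h ((hAC ▸ (⟨hpA, hC'⟩ : p ∈ A ∩ C)) : p ∈ A ∩ B).2
        simp [f, this]
    exact pow_mem hgp _
  have hle := Set.ncard_le_ncard hfix (Set.toFinite _)
  have hcard : (B ∪ C).ncard + (B ∩ C).ncard = B.ncard + C.ncard :=
    Set.ncard_union_add_ncard_inter B C
  have hBC' : (B ∩ C).ncard < C.ncard := by
    refine Set.ncard_lt_ncard ⟨Set.inter_subset_right, fun h => ?_⟩ (Set.toFinite _)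
    -- otherwise all three fixed point sets agree
    have hCB : C ⊆ B := fun p hp => (h hp).1
    have e1 : C = B := Set.eq_of_subset_of_ncard_le hCB (ncard_fixSet_eq hone hw hv).le
    have e2 : B ⊆ A := fun p hp => hBC ⟨hp, e1 ▸ hp⟩
    exact hne (Set.eq_of_subset_of_ncard_le e2 (ncard_fixSet_eq hone hu hw).le).symm
  have h1 := ncard_fixSet_eq (H := H) hone hw hj2
  rw [← hB] at h1
  omega

variable (hbin : IsBinary H) (heven : Even (Nat.card H))

include hone hbin heven in
/-- An involution commuting with an involution of `H` lies in `H`. -/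
theorem mem_of_commute {x y : G} (hx : orderOf x = 2) (hy : orderOf y = 2) (hc : Commute x y)
    (hxH : x ∈ H) : y ∈ H := by
  have h : ((1 : G) : G ⧸ H) ∈ fixSet H x := by
    show x • ((1 : G) : G ⧸ H) = _
    rw [mk_smul_eq_iff]
    simpa using hxH
  rw [fixSet_eq hone hbin heven hx hy hc] at h
  have h' := mk_smul_eq_iff.1 h
  simpa using h'

include hone hbin heven in
/-- The stabiliser of the fixed points of an involution is strongly embedded. -/
theorem exists_stronglyEmbedded (hH : H ≠ ⊤) : ∃ M : Subgroup G, IsStronglyEmbedded M := by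
  haveI : Fact (Nat.Prime 2) := ⟨Nat.prime_two⟩
  obtain ⟨z, hzH, hz⟩ := exists_orderOf_two_mem heven
  -- an involution central in a Sylow subgroup
  obtain ⟨T⟩ : Nonempty (Sylow 2 G) := inferInstance
  have hT : (T : Subgroup G) ≠ ⊥ := T.ne_bot_of_dvd_card
    (hz ▸ orderOf_dvd_natCard z)
  haveI : Nontrivial (T : Subgroup G) := (Subgroup.nontrivial_iff_ne_bot _).2 hT
  haveI := T.isPGroup'.center_nontrivial
  obtain ⟨c, hc⟩ := exists_prime_orderOf_dvd_card' (G := Subgroup.center (T : Subgroup G)) 2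
    ((T.isPGroup'.to_subgroup _).nontrivial_iff_card.1 inferInstance |>.elim fun n hn => by
      rw [hn.2]; exact dvd_pow_self 2 (by omega))
  set u : G := ((c : (T : Subgroup G)) : G) with hudef
  have hu : orderOf u = 2 := by rw [hudef, Subgroup.orderOf_coe, Subgroup.orderOf_coe, hc]
  have hcu : ∀ t ∈ (T : Subgroup G), Commute u t := fun t ht =>
    (congrArg Subtype.val (Subgroup.mem_center_iff.1 c.2 ⟨t, ht⟩)).symm
  let F := fixSet H u
  let M : Subgroup G :=
    { carrier := {g | (g • ·) '' F = F}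
      one_mem' := by simp
      mul_mem' := fun {a b} ha hb => by
        simp only [Set.mem_setOf_eq] at ha hb ⊢
        rw [show (fun p : G ⧸ H => (a * b) • p) = (a • ·) ∘ (b • ·) from funext fun p => mul_smul a b p,
          Set.image_comp, hb, ha]
      inv_mem' := fun {a} ha => by
        simp only [Set.mem_setOf_eq] at ha ⊢
        conv_lhs => rw [← ha, Set.image_image]
        simp }
  have hmem : ∀ g, g ∈ M ↔ (g • ·) '' F = F := fun g => Iff.rfl
  have hCu : ∀ g, Commute u g → g ∈ M := fun g hg => by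
    rw [hmem, ← fixSet_conj]
    rw [← hg.eq, mul_inv_cancel_right]
  have hTM : (T : Subgroup G) ≤ M := fun t ht => hCu t (hcu t ht)
  have hfixM : ∀ j ∈ M, orderOf j = 2 → fixSet H j = F := by
    intro j hj hj2
    have hJ : IsPGroup 2 (Subgroup.zpowers (⟨j, hj⟩ : M)) :=
      IsPGroup.of_card (n := 1) (by rw [Nat.card_zpowers, Subgroup.orderOf_mk, hj2, pow_one])
    obtain ⟨Q, hQ⟩ := hJ.exists_le_sylow
    obtain ⟨m, hm⟩ := MulAction.exists_smul_eq M Q (T.subtype hTM)
    have hmj : (m : G) * j * (m : G)⁻¹ ∈ (T : Subgroup G) := by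
      have h : m * ⟨j, hj⟩ * m⁻¹ ∈ ((T.subtype hTM : Sylow 2 M) : Subgroup M) := by
        rw [← hm, Sylow.coe_subgroup_smul]
        exact ⟨_, hQ (Subgroup.mem_zpowers _), rfl⟩
      exact h
    have h2 : orderOf ((m : G) * j * (m : G)⁻¹) = 2 := by
      rw [show (m : G) * j * (m : G)⁻¹ = MulAut.conj (m : G) j from rfl, MulEquiv.orderOf_eq, hj2]
    have hF := fixSet_eq hone hbin heven hu h2 (hcu _ hmj)
    rw [fixSet_conj] at hF
    refine (Set.image_injective.2 (MulAction.injective (m : G))) ?_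
    exact hF.symm.trans ((hmem _).1 m.2).symm
  refine ⟨M, ?_, ?_, fun g hg => ?_⟩
  · intro hM
    obtain ⟨p, hp⟩ := fixSet_nonempty hone heven hu
    have hall : ∀ q, u • q = q := fun q => by
      obtain ⟨g, rfl⟩ := MulAction.exists_smul_eq G p q
      have hgF : (g • ·) '' F = F := (hmem g).1 (hM ▸ Subgroup.mem_top g)
      have : g • p ∈ F := hgF ▸ Set.mem_image_of_mem _ hp
      exact this
    have : u ∈ H.normalCore := by
      rw [Subgroup.normalCore_eq_ker, MonoidHom.mem_ker]
      exact Equiv.ext hall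
    rw [normalCore_eq_bot hH, Subgroup.mem_bot] at this
    rw [this, orderOf_one] at hu
    omega
  · exact even_iff_two_dvd.2 ((hu ▸ (Subgroup.orderOf_mk (H := M) u (hCu u (Commute.refl u))).symm ▸
      orderOf_dvd_natCard (⟨u, hCu u (Commute.refl u)⟩ : M)))
  · rw [← Nat.not_even_iff_odd]
    intro he
    obtain ⟨j, hj⟩ := exists_prime_orderOf_dvd_card'
      (G := ↥(M ⊓ M.map (MulAut.conj g).toMonoidHom)) 2 he.two_dvd
    obtain ⟨hjM, k, hk, hkj⟩ := j.2
    have hj2 : orderOf (j : G) = 2 := by rwa [Subgroup.orderOf_coe]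
    have hk2 : orderOf k = 2 := by
      rw [← hkj, MulEquiv.toMonoidHom_eq_coe, MonoidHom.coe_coe, MulEquiv.orderOf_eq] at hj2
      exact hj2
    have h1 := hfixM _ hjM hj2
    rw [← hkj, MulEquiv.toMonoidHom_eq_coe, MonoidHom.coe_coe, MulAut.conj_apply, fixSet_conj,
      hfixM k hk hk2] at h1
    exact hg h1

end CfsgLib.BinaryOneClass
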