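import Cfsg.Agent.BinaryPSL.Basic

/-!
Binary coset actions and centres of subgroups along homomorphisms.
-/

set_option autoImplicit false

namespace CfsgLib.BinaryOneClass

open CfsgLib.BinaryPSL

variable {S G : Type*} [Group S] [Group G]

theorem isBinary_comap_iff {π : S →* G} (hπ : Function.Surjective π) (H : Subgroup G) :
    IsBinary (H.comap π) ↔ IsBinary H := by
  constructor
  · intro h n I J hn hp
    choose x hx using fun i => QuotientGroup.mk_surjective (I i)
    choose y hy using fun i => QuotientGroup.mk_surjective (J i)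
    choose x' hx' using fun i => hπ (x i)
    choose y' hy' using fun i => hπ (y i)
    simp only [← hx, ← hy, mk_smul_eq_iff] at hp ⊢
    obtain ⟨a, ha⟩ := h n (fun i => (x' i : S ⧸ H.comap π)) (fun i => (y' i : S ⧸ H.comap π)) hn
      fun i j hij => by
        obtain ⟨g, h1, h2⟩ := hp i j hij
        obtain ⟨a, rfl⟩ := hπ g
        exact ⟨a, mk_smul_eq_iff.mpr (by simpa [hx', hy'] using h1),
          mk_smul_eq_iff.mpr (by simpa [hx', hy'] using h2)⟩
    exact ⟨π a, fun i => by simpa [hx', hy'] using mk_smul_eq_iff.mp (ha i)⟩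
  · intro h n I J hn hp
    choose x hx using fun i => QuotientGroup.mk_surjective (I i)
    choose y hy using fun i => QuotientGroup.mk_surjective (J i)
    simp only [← hx, ← hy, mk_smul_eq_iff] at hp ⊢
    obtain ⟨g, hg⟩ := h n (fun i => (π (x i) : G ⧸ H)) (fun i => (π (y i) : G ⧸ H)) hn
      fun i j hij => by
        obtain ⟨a, h1, h2⟩ := hp i j hij
        exact ⟨π a, mk_smul_eq_iff.mpr (by simpa using h1), mk_smul_eq_iff.mpr (by simpa using h2)⟩
    obtain ⟨a, rfl⟩ := hπ g
    exact ⟨a, fun i => by simpa using mk_smul_eq_iff.mp (hg i)⟩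

/-- The centre of an image. -/
theorem center_map_subtype (f : S →* G) (P : Subgroup S) (hinj : Set.InjOn f P) :
    (Subgroup.center (P.map f : Subgroup G)).map (P.map f).subtype =
      ((Subgroup.center P).map P.subtype).map f := by
  ext x
  constructor
  · rintro ⟨⟨_, z, hz, rfl⟩, hzc, rfl⟩
    refine ⟨z, ⟨⟨z, hz⟩, Subgroup.mem_center_iff.2 fun w => Subtype.ext ?_, rfl⟩, rfl⟩
    refine hinj (mul_mem w.2 hz) (mul_mem hz w.2) ?_
    simp only [Subgroup.coe_mul, map_mul]
    exact congrArg Subtype.val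
      (Subgroup.mem_center_iff.1 hzc ⟨f (w : S), Subgroup.mem_map_of_mem _ w.2⟩)
  · rintro ⟨_, ⟨⟨z, hz⟩, hzc, rfl⟩, rfl⟩
    refine ⟨⟨f z, Subgroup.mem_map_of_mem _ hz⟩, Subgroup.mem_center_iff.2 ?_, rfl⟩
    rintro ⟨_, w, hw, rfl⟩
    refine Subtype.ext ?_
    show f w * f z = f z * f w
    rw [← map_mul, ← map_mul]
    exact congrArg f (congrArg Subtype.val (Subgroup.mem_center_iff.1 hzc ⟨w, hw⟩))

/-- The centres of the Sylow subgroups are the conjugates of one of them. -/
theorem exists_sylow_center_iff [Finite G] (p : ℕ) [Fact p.Prime] (P : Sylow p G) (H : Subgroup G) :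
    (∃ Q : Sylow p G, H = (Subgroup.center (Q : Subgroup G)).map (Q : Subgroup G).subtype) ↔
      ∃ g : G, H = ((Subgroup.center (P : Subgroup G)).map (P : Subgroup G).subtype).map
        (MulAut.conj g).toMonoidHom := by
  have key : ∀ g : G, (Subgroup.center ((g • P : Sylow p G) : Subgroup G)).map
      ((g • P : Sylow p G) : Subgroup G).subtype =
      ((Subgroup.center (P : Subgroup G)).map (P : Subgroup G).subtype).map
        (MulAut.conj g).toMonoidHom := fun g =>
    center_map_subtype (MulAut.conj g).toMonoidHom (P : Subgroup G)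
      (MulAut.conj g).injective.injOn
  constructor
  · rintro ⟨Q, rfl⟩
    obtain ⟨g, rfl⟩ := MulAction.exists_smul_eq G P Q
    exact ⟨g, key g⟩
  · rintro ⟨g, rfl⟩
    exact ⟨g • P, (key g).symm⟩

end CfsgLib.BinaryOneClass
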