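import Cfsg.Agent.BinaryOneClass.UnitaryAff
import Cfsg.Agent.BinaryPSL.Basic

/-!
Subgroups of `SU₃(2ⁿ)` with binary coset action which contain the root groups of all their
transvections.
-/

set_option autoImplicit false
set_option linter.unusedSectionVars false

namespace CfsgLib.BinaryOneClass

open Cfsg CfsgLib.Unitary CfsgLib.UnitaryThree CfsgLib.RankOneClassify.Model CfsgLib.BinaryPSL

variable {F : Type*} [Field F] [Fintype F] {q : ℕ} {d : Data F q}

theorem exists_fixed_ne (d : Data F q) (hq : 4 ≤ q) : ∃ c : F, c ^ q = c ∧ c ≠ 0 ∧ c ≠ 1 := by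
  classical
  by_contra hno
  have h : Nat.card {z : F // z ^ q = z} ≤ Nat.card ({0, 1} : Set F) := by
    refine Nat.card_le_card_of_injective (fun z => ⟨z.1, ?_⟩) fun a b h => by
      simp only [Subtype.mk.injEq] at h; exact Subtype.ext h
    by_contra h'
    simp only [Set.mem_insert_iff, Set.mem_singleton_iff, not_or] at h'
    exact hno ⟨z.1, z.2, h'.1, h'.2⟩
  rw [card_fixed d.card, Nat.card_coe_set_eq] at h
  have := Set.ncard_insert_le (0 : F) {1}
  rw [Set.ncard_singleton] at this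
  omega

/-- The trace does not vanish on the values of `a ↦ a ^ (q - 2)`. -/
theorem exists_pow_trace (d : Data F q) (hq : 4 ≤ q) :
    ∃ a : F, a ≠ 0 ∧ (a ^ q / (a * a)) ^ q + a ^ q / (a * a) ≠ 0 := by
  by_contra hno
  push Not at hno
  obtain ⟨g, hg⟩ := IsCyclic.exists_generator (α := Fˣ)
  have ho : orderOf g = q ^ 2 - 1 := by
    rw [orderOf_eq_card_of_forall_mem_zpowers hg, Nat.card_units, Nat.card_eq_fintype_card, d.card]
  have hpow : g ^ (3 * q) = g ^ 3 := by
    have ha : (g : F) ≠ 0 := g.ne_zero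
    have h : ((g : F) ^ q / ((g : F) * (g : F))) ^ q = (g : F) ^ q / ((g : F) * (g : F)) :=
      eq_of_add_eq_zero_of_two d.two (hno _ ha)
    rw [div_pow, mul_pow, pow_q_q d.card] at h
    field_simp at h
    refine Units.ext ?_
    rw [Units.val_pow_eq_pow_val, Units.val_pow_eq_pow_val, pow_mul']
    linear_combination -h
  have h := pow_eq_pow_iff_modEq.mp hpow
  rw [ho] at h
  have hdvd : (q ^ 2 - 1) ∣ (3 * q - 3) := (Nat.modEq_iff_dvd' (by omega)).mp h.symm
  have := Nat.le_of_dvd (by omega) hdvd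
  have : 4 * q ≤ q ^ 2 := by rw [sq]; exact Nat.mul_le_mul_right q hq
  omega

theorem rep_flip_flip : rep d (flipSU d * flipSU d) = 1 := by
  refine Equiv.ext fun p => ?_
  rw [map_mul, Equiv.Perm.mul_apply, Equiv.Perm.one_apply]
  cases p with
  | none => rw [rep_flip_none, rep_flip_one]
  | some u =>
    by_cases hu : u = 1
    · subst hu; rw [rep_flip_one, rep_flip_none]
    · have hb := coB_ne_zero hu
      have hf : flip u ≠ 1 := fun h => by
        have := congrArg coB h
        rw [coB_flip hu, coB_one] at this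
        exact one_div_ne_zero hb this
      rw [rep_flip_some hu, rep_flip_some hf,
        uni_ext (g := flip (flip u)) (h := u) (by rw [coA_flip hf, coA_flip hu, coB_flip hu]; field_simp)
          (by rw [coB_flip hf, coB_flip hu]; field_simp)]

/-- A central element of the unipotent group. -/
def zel (d : Data F q) (c : F) (hc : c ^ q = c) : uni d := el d 0 c (cond_zero hc d)

theorem coA_zel (c : F) (hc : c ^ q = c) : coA (zel d c hc) = 0 := rfl

theorem coB_zel_mul (c : F) (hc : c ^ q = c) (w : uni d) :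
    coB (zel d c hc * w) = c + coB w := by
  rw [coB_mul, show coA (zel d c hc) = 0 from rfl, zero_pow d.q_pos.ne', zero_mul, add_zero]
  rfl

theorem rep_zel_mul {c : F} (hc : c ^ q = c) {g : ↥(SU 3 F q)} {p : Option (uni d)} {w : uni d}
    (h : rep d g p = some w) :
    ∃ w' : uni d, rep d ((zel d c hc : ↥(SU 3 F q)) * g) p = some w' ∧ coA w' = coA w ∧
      coB w' = c + coB w :=
  ⟨zel d c hc * w, by rw [map_mul, Equiv.Perm.mul_apply, h, rep_uni_some],
    by rw [coA_mul, coA_zel, zero_add], coB_zel_mul c hc w⟩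

theorem rep_flip_mul {g : ↥(SU 3 F q)} {p : Option (uni d)} {w : uni d}
    (h : rep d g p = some w) (hw : coB w ≠ 0) :
    ∃ w' : uni d, rep d (flipSU d * g) p = some w' ∧ coA w' = coA w / coB w ∧
      coB w' = 1 / coB w := by
  have hw1 : w ≠ 1 := fun e => hw (by rw [e, coB_one])
  exact ⟨flip w, by rw [map_mul, Equiv.Perm.mul_apply, h, rep_flip_some hw1], coA_flip hw1,
    coB_flip hw1⟩

theorem rep_zel_none {c : F} (hc : c ^ q = c) :
    rep d (zel d c hc : ↥(SU 3 F q)) none = none := rep_uni_none _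

/-- The product of transvections acting as a diagonal element. -/
noncomputable def kap (d : Data F q) (c : F) (hc : c ^ q = c) : ↥(SU 3 F q) :=
  flipSU d * ((zel d c hc : ↥(SU 3 F q)) * (flipSU d * ((zel d c⁻¹ (by rw [inv_pow, hc]) : ↥(SU 3 F q)) *
    (flipSU d * (zel d c hc : ↥(SU 3 F q))))))

theorem flip_zel {c : F} (hc : c ^ q = c) (hc0 : c ≠ 0) :
    flip (zel d c hc) = zel d c⁻¹ (by rw [inv_pow, hc]) := by
  have hne : zel d c hc ≠ 1 := fun e => hc0 (by
    have := congrArg coB e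
    rwa [coB_one] at this)
  refine uni_ext (by rw [coA_flip hne, coA_zel, coA_zel, zero_div]) ?_
  rw [coB_flip hne, show coB (zel d c hc) = c from rfl, one_div]
  rfl

theorem zel_mul_self {c : F} (hc : c ^ q = c) : zel d c hc * zel d c hc = 1 := by
  refine uni_ext (by rw [coA_mul, coA_zel, add_zero, coA_one]) ?_
  rw [coB_zel_mul, show coB (zel d c hc) = c from rfl, coB_one, add_self d]

theorem zel_ne_one {c : F} (hc : c ^ q = c) (hc0 : c ≠ 0) : zel d c hc ≠ 1 := fun e => hc0 (by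
  have := congrArg coB e
  rwa [coB_one] at this)

/-- A point with first coordinate one. -/
theorem exists_test (d : Data F q) :
    ∃ w : uni d, coA w = 1 ∧ ∀ c : F, c ^ q = c → coB w + c ≠ 0 := by
  obtain ⟨w, hw⟩ := exists_coA d (1 : F)
  refine ⟨w, hw, fun c hc h => one_ne_zero (α := F) ?_⟩
  have h' := cond_coords w
  rw [Cond, hw, one_pow, eq_of_add_eq_zero_of_two d.two h, hc, add_self d] at h'
  exact h'.symm

theorem aff_kap {c : F} (hc : c ^ q = c) (hc0 : c ≠ 0) : Aff d (kap d c hc) 0 c⁻¹ := by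
  have hi : c⁻¹ ^ q = c⁻¹ := by rw [inv_pow, hc]
  have e1 : rep d (kap d c hc) none = none := by
    simp only [kap, map_mul, Equiv.Perm.mul_apply]
    rw [rep_zel_none, rep_flip_none, rep_uni_some, mul_one,
      rep_flip_some (zel_ne_one hi (inv_ne_zero hc0)), rep_uni_some, flip_zel hi (inv_ne_zero hc0)]
    simp only [inv_inv]
    rw [zel_mul_self, rep_flip_one]
  have e2 : rep d (kap d c hc) (some 1) = some 1 := by
    simp only [kap, map_mul, Equiv.Perm.mul_apply]
    rw [rep_uni_some, mul_one, rep_flip_some (zel_ne_one hc hc0), flip_zel hc hc0, rep_uni_some,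
      zel_mul_self, rep_flip_one, rep_zel_none, rep_flip_none]
  obtain ⟨a, ha⟩ := exists_tor_of_fix e1 e2
  have haff := ha.aff
  obtain ⟨w, hwA, hwB⟩ := exists_test d
  obtain ⟨w₀, h₀, hA₀⟩ := haff.2.2 w
  have hb0 : coB w ≠ 0 := by simpa using hwB 0 (zero_pow d.q_pos.ne')
  obtain ⟨w₁, h₁, a₁, b₁⟩ := rep_zel_mul hc (g := 1) (p := some w) (w := w) (by rw [map_one]; rfl)
  have b₁0 : coB w₁ ≠ 0 := by rw [b₁, add_comm]; exact hwB c hc
  obtain ⟨w₂, h₂, a₂, b₂⟩ := rep_flip_mul h₁ b₁0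
  obtain ⟨w₃, h₃, a₃, b₃⟩ := rep_zel_mul hi h₂
  have hv : c + coB w ≠ 0 := by rw [← b₁]; exact b₁0
  have b₃e : coB w₃ = coB w / (c * (c + coB w)) := by
    rw [b₃, b₂, b₁]
    field_simp
    linear_combination c * d.two
  obtain ⟨w₄, h₄, a₄, b₄⟩ := rep_flip_mul h₃ (by
    rw [b₃e]; exact div_ne_zero hb0 (mul_ne_zero hc0 hv))
  obtain ⟨w₅, h₅, a₅, b₅⟩ := rep_zel_mul hc h₄
  have b₅e : coB w₅ = c * c / coB w := by
    rw [b₅, b₄, b₃e]
    field_simp
    linear_combination (coB w) * d.two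
  obtain ⟨w₆, h₆, a₆, b₆⟩ := rep_flip_mul h₅ (by
    rw [b₅e]; exact div_ne_zero (mul_ne_zero hc0 hc0) hb0)
  rw [mul_one] at h₆
  obtain rfl : w₆ = w₀ := Option.some_injective _ (h₆.symm.trans h₀)
  have hk : a ^ q * a ^ q / a = c⁻¹ := by
    rw [hwA, mul_one, zero_add] at hA₀
    rw [← hA₀, a₆, b₅e, a₅, a₄, b₃e, a₃, a₂, a₁, b₁, hwA]
    field_simp
  rw [← hk]
  exact haff

theorem rep_flip_eq (d : Data F q) : rep d ((zel d 1 (one_pow q) : ↥(SU 3 F q)) * (flipSU d *
    (zel d 1 (one_pow q) : ↥(SU 3 F q)) * flipSU d) * (zel d 1 (one_pow q) : ↥(SU 3 F q))) =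
    rep d (flipSU d) := by
  set y := kap d 1 (one_pow q) with hy
  obtain ⟨u, hu, hy1⟩ := exists_uni_of_aff (by simpa using aff_kap (one_pow q) (one_ne_zero (α := F)) :
    Aff d y 0 1)
  have hy2 : rep d y = 1 := by
    have e2 : rep d y (some 1) = some 1 := by
      obtain ⟨w, hw, hA⟩ := (aff_kap (d := d) (one_pow q) (one_ne_zero (α := F))).2.2 1
      rw [hy, hw]
      simp only [hy, kap, map_mul, Equiv.Perm.mul_apply] at hw
      rw [rep_uni_some, mul_one, rep_flip_some (zel_ne_one _ one_ne_zero), flip_zel _ one_ne_zero,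
        rep_uni_some] at hw
      simp only [inv_one] at hw
      rw [zel_mul_self, rep_flip_one, rep_zel_none, rep_flip_none] at hw
      exact hw.symm
    rw [hy1, rep_uni_some, mul_one] at e2
    rw [hy1, Option.some_injective _ e2]
    exact map_one _
  have hf : (rep d (flipSU d))⁻¹ = rep d (flipSU d) :=
    inv_eq_of_mul_eq_one_right (by rw [← map_mul]; exact rep_flip_flip)
  simp only [hy, kap, inv_one, map_mul] at hy2
  simp only [map_mul]
  have h := eq_inv_of_mul_eq_one_right hy2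
  rw [hf] at h
  simpa only [mul_assoc] using h

variable (H : Subgroup ↥(SU 3 F q))

/-- Membership in `H` only depends on the permutation of the points. -/
def RepClosed (d : Data F q) (H : Subgroup ↥(SU 3 F q)) : Prop :=
  ∀ x y : ↥(SU 3 F q), rep d x = rep d y → x ∈ H → y ∈ H

/-- The transvection group of the base point. -/
def RootMem (d : Data F q) (H : Subgroup ↥(SU 3 F q)) (g : ↥(SU 3 F q)) : Prop :=
  ∀ e : uni d, coA e = 0 → g * (e : ↥(SU 3 F q)) * g⁻¹ ∈ H

variable {H}

theorem flip_mem (hcen : RepClosed d H) (h0 : RootMem d H 1) (h1 : RootMem d H (flipSU d)) :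
    flipSU d ∈ H := by
  have hf : rep d (flipSU d)⁻¹ = rep d (flipSU d) := by
    rw [map_inv]; exact inv_eq_of_mul_eq_one_right (by rw [← map_mul]; exact rep_flip_flip)
  have a := h0 (zel d 1 (one_pow q)) rfl
  have b := h1 (zel d 1 (one_pow q)) rfl
  simp only [one_mul, inv_one, mul_one] at a
  refine hcen _ _ ?_ (mul_mem (mul_mem a b) a)
  rw [← rep_flip_eq d]
  simp only [map_mul, hf]

theorem exists_kap_mem (hcen : RepClosed d H) (hq : 4 ≤ q) (h0 : RootMem d H 1)
    (h1 : RootMem d H (flipSU d)) : ∃ x k, x ∈ H ∧ k ≠ 1 ∧ Aff d x 0 k := by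
  obtain ⟨c, hc, hc0, hc1⟩ := exists_fixed_ne d hq
  refine ⟨kap d c hc, c⁻¹, ?_, fun h => hc1 (inv_eq_one.1 h), aff_kap hc hc0⟩
  have hz : ∀ (z : F) (hz : z ^ q = z), (zel d z hz : ↥(SU 3 F q)) ∈ H := fun z hz => by
    simpa using h0 (zel d z hz) rfl
  have hf := flip_mem hcen h0 h1
  exact mul_mem hf (mul_mem (hz _ _) (mul_mem hf (mul_mem (hz _ _) (mul_mem hf (hz _ _)))))

/-- The translations in `H`, by first coordinate. -/
def trSet (d : Data F q) (H : Subgroup ↥(SU 3 F q)) : Set F :=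
  {v | ∃ x ∈ H, Aff d x v 1}

theorem uni_mem_iff (hcen : RepClosed d H) (hE : RootMem d H 1) (u : uni d) :
    (u : ↥(SU 3 F q)) ∈ H ↔ coA u ∈ trSet d H := by
  refine ⟨fun h => ⟨_, h, Aff.uni u⟩, fun ⟨x, hx, hax⟩ => ?_⟩
  obtain ⟨u', hu', hxu⟩ := exists_uni_of_aff hax
  have h1 : (u' : ↥(SU 3 F q)) ∈ H := hcen _ _ hxu hx
  have h2 := hE (u'⁻¹ * u) (by rw [coA_mul, coA_inv, hu', add_self d])
  simp only [one_mul, inv_one, mul_one, Subgroup.coe_mul, Subgroup.coe_inv] at h2
  simpa [← mul_assoc] using mul_mem h1 h2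

/-- The multiples `(1 + k) · W = W` for the scalars `k` of `H`. -/
theorem one_add_mul_mem_iff {x : ↥(SU 3 F q)} {v k : F} (hx : x ∈ H) (ha : Aff d x v k)
    (hk : k ≠ 1) (p : F) : (1 + k) * p ∈ trSet d H ↔ p ∈ trSet d H := by
  have hk0 := ha.1
  have h1k : (1 : F) + k ≠ 0 := fun h => hk (by linear_combination h - d.two)
  have hmul : ∀ w ∈ trSet d H, (1 + k) * w ∈ trSet d H := by
    rintro w ⟨y, hy, hay⟩
    have h := ((ha.mul hay).mul ha.inv).mul hay
    refine ⟨_, mul_mem (mul_mem (mul_mem hx hy) (inv_mem hx)) hy, ?_⟩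
    rw [mul_one, mul_inv_cancel₀ hk0, one_mul, mul_div_cancel₀ _ hk0] at h
    rwa [show v + k * w + v + w = (1 + k) * w by linear_combination v * d.two, one_mul] at h
  refine ⟨fun hp => ?_, hmul p⟩
  let f : trSet d H → trSet d H := fun w => ⟨(1 + k) * w.1, hmul _ w.2⟩
  have hinj : Function.Injective f := fun w w' h =>
    Subtype.ext (mul_left_cancel₀ h1k (congrArg Subtype.val h))
  obtain ⟨w, hw⟩ := Finite.injective_iff_surjective.mp hinj ⟨_, hp⟩
  have := mul_left_cancel₀ h1k (congrArg Subtype.val hw)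
  exact this ▸ w.2

/-- A triple coming from a non-trivial scalar. -/
theorem not_isBinary_of_scalar (hcen : RepClosed d H) (hE : RootMem d H 1) {h : ↥(SU 3 F q)} {v₀ k : F}
    (hh : h ∈ H) (ha : Aff d h v₀ k) (hk : k ≠ 1) {p : F} (hp : p ∉ trSet d H)
    (hsep : ∀ u : uni d, coA u ∉ trSet d H → ∀ x ∈ H,
      (u : ↥(SU 3 F q))⁻¹ * x * u ∈ H → rep d x none = none) : ¬ IsBinary H := by
  have hk0 := ha.1
  have h1k : (1 : F) + k ≠ 0 := fun e => hk (by linear_combination e - d.two)
  have hkp : k * p ∉ trSet d H := by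
    rintro ⟨y, hy, hay⟩
    refine hp ?_
    have h' := (ha.inv.mul hay).mul ha
    refine ⟨_, mul_mem (mul_mem (inv_mem hh) hy) hh, ?_⟩
    rw [mul_one, inv_mul_cancel₀ hk0] at h'
    rwa [show v₀ / k + k⁻¹ * (k * p) + k⁻¹ * v₀ = p by
      field_simp
      linear_combination v₀ * d.two] at h'
  obtain ⟨u, hu⟩ := exists_coA d (k * p)
  obtain ⟨w, hw⟩ := exists_coA d p
  have hb := ha.conj u
  have hc := ha.conj w
  rw [hu] at hb
  rw [hw] at hc
  set b := (u : ↥(SU 3 F q)) * h * (u : ↥(SU 3 F q))⁻¹ with hbdef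
  set c := (w : ↥(SU 3 F q)) * h * (w : ↥(SU 3 F q))⁻¹ with hcdef
  have hbc := hb.mul hc
  have hhh := ha.mul ha
  rw [show v₀ + (1 + k) * (k * p) + k * (v₀ + (1 + k) * p) = v₀ + k * v₀ by
    linear_combination (k * p + k * k * p) * d.two] at hbc
  refine not_isBinary_of_triple ⟨u, trivial, w, trivial, b, c, by simpa [hbdef, mul_assoc] using hh,
    by simpa [hcdef, mul_assoc] using hh, ?_, ?_⟩
  · have hq' := hhh.inv.mul hbc
    rw [inv_mul_cancel₀ (mul_ne_zero hk0 hk0),
      show (v₀ + k * v₀) / (k * k) + (k * k)⁻¹ * (v₀ + k * v₀) = 0 by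
        field_simp
        linear_combination (v₀ + k * v₀) * d.two] at hq'
    obtain ⟨e, he, hee⟩ := exists_uni_of_aff hq'
    have heH : (e : ↥(SU 3 F q)) ∈ H := by simpa using hE e he
    simpa [mul_assoc] using mul_mem (mul_mem hh hh) (hcen _ _ hee.symm heH)
  · intro x hx y hy hxu hyw he
    have key : ∀ (z : ↥(SU 3 F q)) (u : uni d), coA u ∉ trSet d H → z ∈ H →
        (u : ↥(SU 3 F q))⁻¹ * z * u ∈ H → ∃ v, Aff d z v 1 := by
      intro z u hu hz hzu
      obtain ⟨u₁, a, -, -, haz⟩ := exists_aff (hsep u hu z hz hzu)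
      set μ := a ^ q * a ^ q / a
      by_cases hμ : μ = 1
      · exact ⟨_, hμ ▸ haz⟩
      exfalso
      refine hu ((one_add_mul_mem_iff hz haz hμ _).1 ?_)
      have hc' := haz.conj u⁻¹
      simp only [Subgroup.coe_inv, inv_inv, coA_inv] at hc'
      refine ⟨_, mul_mem hzu (inv_mem hz), ?_⟩
      have h' := hc'.mul haz.inv
      rw [mul_inv_cancel₀ haz.1, mul_div_cancel₀ _ haz.1] at h'
      rwa [show coA u₁ + (1 + μ) * coA u + coA u₁ = (1 + μ) * coA u by
        linear_combination coA u₁ * d.two] at h'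
    obtain ⟨vx, hvx⟩ := key x u (hu ▸ hkp) hx hxu
    obtain ⟨vy, hvy⟩ := key y w (hw ▸ hp) hy hyw
    have h1 := hvx.mul hvy
    rw [he] at h1
    obtain ⟨-, h2⟩ := h1.eq_left hbc
    exact hk (eq_one_of_sq_eq_one d (by rw [← h2, one_mul]))

/-- The order three element of the triple in the unipotent case. -/
theorem rep_cube_eq_one {s : uni d} {a : F} {T : ↥(SU 3 F q)} (hT : Tor d T a)
    (hs : coA s ≠ 0) (hr : coB s = a ^ q / (a * a)) :
    rep d ((s : ↥(SU 3 F q)) * flipSU d * T) none = some s ∧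
      rep d ((s : ↥(SU 3 F q)) * flipSU d * T * ((s : ↥(SU 3 F q)) * flipSU d * T) *
        ((s : ↥(SU 3 F q)) * flipSU d * T)) = 1 := by
  set σ := (s : ↥(SU 3 F q)) * flipSU d * T with hσ
  have ha := hT.1
  have hA : a ^ q ≠ 0 := pow_ne_zero _ ha
  have e0 : rep d σ none = some s := by
    simp only [hσ, map_mul, Equiv.Perm.mul_apply]
    rw [hT.2.1, rep_flip_none, rep_uni_some, mul_one]
  have e1 : rep d σ (some 1) = none := by
    simp only [hσ, map_mul, Equiv.Perm.mul_apply]
    rw [hT.fix_one, rep_flip_one, rep_uni_none]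
  have e2 : rep d σ (some s) = some 1 := by
    obtain ⟨w, hw, hwA, hwB⟩ := hT.2.2 s
    have hw1 : w ≠ 1 := fun e => by
      rw [e, coA_one] at hwA
      exact hs ((mul_eq_zero.1 hwA.symm).resolve_left (div_ne_zero (mul_ne_zero hA hA) ha))
    simp only [hσ, map_mul, Equiv.Perm.mul_apply]
    rw [hw, rep_flip_some hw1, rep_uni_some]
    have hsB : coB s ≠ 0 := by rw [hr]; exact div_ne_zero hA (mul_ne_zero ha ha)
    have hfA : coA (flip w) = coA s := by
      rw [coA_flip hw1, hwA, hwB, hr]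
      field_simp
    congr 1
    refine uni_ext (by rw [coA_mul, hfA, add_self d, coA_one]) ?_
    have hc := cond_coords s
    rw [Cond, pow_succ] at hc
    have hq : coB s ^ q = a / (a ^ q * a ^ q) := by
      rw [hr, div_pow, pow_q_q d.card, mul_pow]
    rw [coB_mul, hfA, coB_one, coB_flip hw1, hwB, ← hc, hq, hr]
    field_simp
    linear_combination (a ^ 3 + (a ^ q) ^ 3) * d.two
  refine ⟨e0, ?_⟩
  have f0 : rep d (σ * σ * σ) none = none := by
    simp only [map_mul, Equiv.Perm.mul_apply]; rw [e0, e2, e1]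
  have f1 : rep d (σ * σ * σ) (some 1) = some 1 := by
    simp only [map_mul, Equiv.Perm.mul_apply]; rw [e1, e0, e2]
  have f2 : rep d (σ * σ * σ) (some s) = some s := by
    simp only [map_mul, Equiv.Perm.mul_apply]; rw [e2, e1, e0]
  obtain ⟨a', ha'⟩ := exists_tor_of_fix f0 f1
  obtain ⟨w, hw, hwA, -⟩ := ha'.2.2 s
  obtain rfl : s = w := Option.some_injective _ (f2.symm.trans hw)
  exact ha'.rep_eq_one (mul_eq_right₀ hs |>.1 hwA.symm)

/-- A triple coming from a translation. -/
theorem not_isBinary_of_translation (hq : 4 ≤ q) (hcen : RepClosed d H)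
    (hfix : ∀ x ∈ H, rep d x none = none) (hone : ∀ x ∈ H, ∀ v k, Aff d x v k → k = 1)
    {u : uni d} (hu : (u : ↥(SU 3 F q)) ∈ H) (hu0 : coA u ≠ 0) : ¬ IsBinary H := by
  set X := coA u with hX
  set Y := coB u with hY
  have hY0 : Y ≠ 0 := coB_ne_zero fun e => hu0 (by rw [hX, e, coA_one])
  have hXq : X ^ q ≠ 0 := pow_ne_zero _ hu0
  set S := Y / X ^ q with hS
  set m := S ^ (q + 1) with hm
  have hm0 : m ≠ 0 := pow_ne_zero _ (div_ne_zero hY0 hXq)
  have hmq : m ^ q = m := norm_pow_q d.card S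
  obtain ⟨a₀, ha₀, ht⟩ := exists_pow_trace d hq
  set r₀ := a₀ ^ q / (a₀ * a₀) with hr₀
  set t := r₀ ^ q + r₀ with ht'
  have htq : t ^ q = t := by
    rw [ht', add_pow_q d.card, pow_q_q d.card, add_comm]
  set c := t / m with hc
  have hcq : c ^ q = c := by rw [hc, div_pow, htq, hmq]
  have hc0 : c ≠ 0 := div_ne_zero ht hm0
  set a := a₀ * c with ha
  set r := a ^ q / (a * a) with hr
  have hrr : r = r₀ * m / t := by
    rw [hr, ha, hr₀, mul_pow, hcq, hc]
    field_simp
  have hcond : Cond q S r := by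
    rw [Cond, hrr, div_pow, mul_pow, hmq, htq, ← add_div, ← hm, div_eq_iff ht]
    linear_combination (-m) * ht'
  set s := el d S r hcond with hs
  obtain ⟨T, hT⟩ := exists_tor d (show a ≠ 0 from mul_ne_zero ha₀ hc0)
  have hr0 : r + r ^ q ≠ 0 := by
    have := hcond; rw [Cond, ← hm] at this; rw [this]; exact hm0
  have hsA : coA s ≠ 0 := by rw [hs, coA_el]; exact div_ne_zero hY0 hXq
  have hsB : coB (u * s) = r := by
    rw [coB_mul, hs, coA_el, coB_el, ← hX, ← hY, hS, mul_div_cancel₀ _ hXq]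
    linear_combination Y * d.two
  have hs2 : coA (u * s) ≠ 0 := fun e => hr0 (by
    have := cond_coords (u * s)
    rw [Cond, e, hsB, zero_pow (Nat.succ_ne_zero q)] at this
    exact this)
  obtain ⟨e0, hσ⟩ := rep_cube_eq_one (s := s) hT hsA (by rw [hs, coB_el])
  obtain ⟨-, hτ⟩ := rep_cube_eq_one (s := u * s) hT hs2 hsB
  set σ := (s : ↥(SU 3 F q)) * flipSU d * T with hσdef
  have hσs : rep d (σ * σ) none ≠ none := by
    intro e
    have h3 := congrArg (fun π : Equiv.Perm _ => π none) hσ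
    rw [map_mul, Equiv.Perm.mul_apply, map_mul, Equiv.Perm.mul_apply, e0] at h3
    rw [map_mul, Equiv.Perm.mul_apply, e0] at e
    simp only [Equiv.Perm.one_apply] at h3
    rw [e, e0] at h3
    exact Option.some_ne_none _ h3
  have key : ∀ x ∈ H, ∀ g : ↥(SU 3 F q), rep d g none ≠ none → g⁻¹ * x * g ∈ H →
      rep d x = 1 := by
    intro x hx g hg hxg
    obtain ⟨u₁, a₁, -, -, haff⟩ := exists_aff (hfix x hx)
    obtain ⟨u', -, hxu⟩ := exists_uni_of_aff (hone x hx _ _ haff ▸ haff)
    have hfx := hfix _ hxg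
    rw [map_mul, map_mul, map_inv, Equiv.Perm.mul_apply, Equiv.Perm.mul_apply] at hfx
    have hfx' : rep d x (rep d g none) = rep d g none := (rep d g).symm_apply_eq.1 hfx
    cases hg' : rep d g none with
    | none => exact absurd hg' hg
    | some w =>
      rw [hg', hxu, rep_uni_some] at hfx'
      rw [hxu, (mul_eq_right.1 (Option.some_injective _ hfx') : u' = 1)]
      exact map_one _
  refine not_isBinary_of_triple ⟨σ, trivial, σ * σ, trivial, σ * u * σ⁻¹, σ * σ * u * (σ * σ)⁻¹,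
    by simpa [mul_assoc] using hu, by simpa [mul_assoc] using hu, ?_, ?_⟩
  · refine hcen _ _ ?_ (inv_mem hu)
    have hτ' : ((u * s : uni d) : ↥(SU 3 F q)) * flipSU d * T = (u : ↥(SU 3 F q)) * σ := by
      rw [hσdef, Subgroup.coe_mul]; simp only [mul_assoc]
    rw [hτ'] at hτ
    simp only [map_mul, map_inv] at hτ hσ ⊢
    set P := rep d (u : ↥(SU 3 F q))
    set Sg := rep d σ
    calc P⁻¹ = P⁻¹ * (P * Sg * (P * Sg) * (P * Sg)) * (Sg * Sg * Sg)⁻¹ := by
          rw [hτ, hσ]; group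
      _ = Sg * P * Sg⁻¹ * (Sg * Sg * P * (Sg * Sg)⁻¹) := by group
  · intro x hx y hy hxg hyg he
    have h1 := key x hx σ (by rw [e0]; exact Option.some_ne_none _) hxg
    have h2 := key y hy (σ * σ) hσs hyg
    have h3 := congrArg (rep d) he
    rw [map_mul, h1, h2, mul_one] at h3
    suffices hP : rep d (u : ↥(SU 3 F q)) = 1 by
      exact hu0 (by rw [hX, show u = 1 from rep_uni_eq_one_iff.1 hP, coA_one])
    have hτ' : ((u * s : uni d) : ↥(SU 3 F q)) * flipSU d * T = (u : ↥(SU 3 F q)) * σ := by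
      rw [hσdef, Subgroup.coe_mul]; simp only [mul_assoc]
    rw [hτ'] at hτ
    simp only [map_mul, map_inv] at hτ hσ h3
    set P := rep d (u : ↥(SU 3 F q))
    set Sg := rep d σ
    calc P = ((P * Sg * (P * Sg) * (P * Sg)) * (Sg * Sg * Sg)⁻¹) *
          (Sg * P * Sg⁻¹ * (Sg * Sg * P * (Sg * Sg)⁻¹))⁻¹ := by group
      _ = 1 := by rw [hτ, hσ, ← h3]; group

/-- The count excluding a Borel-type stabiliser. -/
theorem not_isBinary_of_borel (hq : 4 ≤ q) (hcen : RepClosed d H)
    (hfix : ∀ x ∈ H, rep d x none = none) (hU : ∀ u : uni d, (u : ↥(SU 3 F q)) ∈ H) :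
    ¬ IsBinary H := by
  classical
  intro hbin
  let A : Subgroup Fˣ :=
    { carrier := {a | ∃ x ∈ H, Tor d x (a : F)}
      one_mem' := ⟨1, one_mem H, by
        refine ⟨one_ne_zero, by rw [map_one]; rfl, fun w => ⟨w, by rw [map_one]; rfl, by simp, by simp⟩⟩⟩
      mul_mem' := fun {a b} ⟨x, hx, hxa⟩ ⟨y, hy, hyb⟩ => ⟨x * y, mul_mem hx hy, by
        rw [Units.val_mul]; exact hxa.mul hyb⟩
      inv_mem' := fun {a} ⟨x, hx, hxa⟩ => ⟨x⁻¹, inv_mem hx, by
        have h0 : rep d x⁻¹ none = none := by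
          rw [map_inv]; exact (rep d x).symm_apply_eq.2 hxa.2.1.symm
        obtain ⟨T, hT⟩ := exists_tor d (a⁻¹ : Fˣ).ne_zero
        have h1 : rep d T = rep d x⁻¹ := by
          rw [map_inv]
          refine eq_inv_of_mul_eq_one_left ?_
          rw [← map_mul]
          have := hT.mul hxa
          rw [Units.inv_mul] at this
          exact this.rep_eq_one (by simp)
        refine ⟨hT.1, h0, fun w => ?_⟩
        rw [← h1]; exact hT.2.2 w⟩ }
  -- every element moving the base point is `u * flip * T * h`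
  have decomp : ∀ x : ↥(SU 3 F q), rep d x none ≠ none → ∃ (u : uni d) (a : Fˣ) (T h : ↥(SU 3 F q)),
      Tor d T (a : F) ∧ h ∈ H ∧ x = u * flipSU d * T * h := by
    intro x hx
    cases hu : rep d x none with
    | none => exact absurd hu hx
    | some u =>
      set y := ((u : ↥(SU 3 F q)) * flipSU d)⁻¹ * x with hy
      have hy0 : rep d y none = none := by
        rw [hy, map_mul, map_inv, Equiv.Perm.mul_apply, hu]
        refine (rep d _).symm_apply_eq.2 ?_
        rw [map_mul, Equiv.Perm.mul_apply, rep_flip_none, rep_uni_some, mul_one]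
      cases hv : (rep d y).symm (some 1) with
      | none =>
        rw [Equiv.symm_apply_eq, hy0] at hv
        exact absurd hv (Option.some_ne_none _)
      | some v =>
        rw [Equiv.symm_apply_eq] at hv
        obtain ⟨a, ha⟩ := exists_tor_of_fix (x := y * (v : ↥(SU 3 F q)))
          (by rw [map_mul, Equiv.Perm.mul_apply, rep_uni_none, hy0])
          (by rw [map_mul, Equiv.Perm.mul_apply, rep_uni_some, mul_one, ← hv])
        exact ⟨u, Units.mk0 a ha.1, y * (v : ↥(SU 3 F q)), (v : ↥(SU 3 F q))⁻¹, by rwa [Units.val_mk0],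
          inv_mem (hU v), by rw [hy]; group⟩
  have hmove : ∀ w : {w : uni d // w ≠ 1},
      rep d ((flipSU d)⁻¹ * ((w.1 : ↥(SU 3 F q)) * flipSU d)) none ≠ none := by
    intro w h
    rw [map_mul, map_inv, Equiv.Perm.mul_apply] at h
    have := (rep d (flipSU d)).symm_apply_eq.1 h
    rw [map_mul, Equiv.Perm.mul_apply, rep_flip_none, rep_uni_some, mul_one] at this
    exact w.2 (Option.some_injective _ this)
  choose u a T h hT hh hx using fun w => decomp _ (hmove w)
  let cls : {w : uni d // w ≠ 1} → Fˣ ⧸ A := fun w => QuotientGroup.mk (a w)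
  -- binarity relates points in one class by the stabiliser of the two base points
  have key : ∀ w w', cls w = cls w' → ∃ b : A, ∀ x : ↥(SU 3 F q), Tor d x ((b : Fˣ) : F) →
      rep d x (some w.1) = some w'.1 := by
    intro w w' hcl
    set f := flipSU d
    set g := (w.1 : ↥(SU 3 F q)) * f
    set g' := (w'.1 : ↥(SU 3 F q)) * f
    obtain ⟨t, ht, htT⟩ : (a w)⁻¹ * a w' ∈ A := QuotientGroup.eq.1 hcl
    have hT' : rep d (T w') = rep d (T w * t) := by
      have := (hT w).mul htT
      rw [← Units.val_mul, mul_inv_cancel_left] at this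
      exact (hT w').rep_eq this
    obtain ⟨k, hk⟩ := hbin 3 ![((1 : ↥(SU 3 F q)) : _ ⧸ H), f, g] ![((1 : ↥(SU 3 F q)) : _ ⧸ H), f, g']
      (by norm_num) (by
      have p01 : ∃ k : ↥(SU 3 F q), k • ((1 : ↥(SU 3 F q)) : _ ⧸ H) = ((1 : ↥(SU 3 F q)) : _ ⧸ H) ∧
          k • ((f : ↥(SU 3 F q)) : _ ⧸ H) = (f : _ ⧸ H) := ⟨1, one_smul _ _, one_smul _ _⟩
      have p02 : ∃ k : ↥(SU 3 F q), k • ((1 : ↥(SU 3 F q)) : _ ⧸ H) = ((1 : ↥(SU 3 F q)) : _ ⧸ H) ∧
          k • ((g : ↥(SU 3 F q)) : _ ⧸ H) = (g' : _ ⧸ H) := by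
        refine ⟨(w'.1 : ↥(SU 3 F q)) * (w.1 : ↥(SU 3 F q))⁻¹, ?_, ?_⟩
        · rw [mk_smul_eq_iff]
          simpa using mul_mem (hU w'.1) (inv_mem (hU w.1))
        · rw [mk_smul_eq_iff, show g'⁻¹ * ((w'.1 : ↥(SU 3 F q)) * (w.1 : ↥(SU 3 F q))⁻¹) * g = 1 by
            simp only [g, g']; group]
          exact one_mem H
      have p12 : ∃ k : ↥(SU 3 F q), k • ((f : ↥(SU 3 F q)) : _ ⧸ H) = (f : _ ⧸ H) ∧
          k • ((g : ↥(SU 3 F q)) : _ ⧸ H) = (g' : _ ⧸ H) := by
        set k₀ := (u w' : ↥(SU 3 F q)) * (u w : ↥(SU 3 F q))⁻¹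
        refine ⟨f * k₀ * f⁻¹, ?_, ?_⟩
        · rw [mk_smul_eq_iff, show f⁻¹ * (f * k₀ * f⁻¹) * f = k₀ by group]
          exact mul_mem (hU _) (inv_mem (hU _))
        · rw [mk_smul_eq_iff]
          have e : g'⁻¹ * (f * k₀ * f⁻¹) * g = (f⁻¹ * g')⁻¹ * k₀ * (f⁻¹ * g) := by group
          rw [e, show f⁻¹ * g' = _ from hx w', show f⁻¹ * g = _ from hx w]
          refine hcen ((h w')⁻¹ * t⁻¹ * h w) _ ?_ (mul_mem (mul_mem (inv_mem (hh w')) (inv_mem ht)) (hh w))
          simp only [map_mul, map_inv, hT', k₀]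
          group
      have flipP : ∀ {x y x' y' : ↥(SU 3 F q) ⧸ H}, (∃ k : ↥(SU 3 F q), k • x = x' ∧ k • y = y') →
          ∃ k : ↥(SU 3 F q), k • y = y' ∧ k • x = x' := fun ⟨k, h1, h2⟩ => ⟨k, h2, h1⟩
      intro i j hij
      fin_cases i <;> fin_cases j <;> first
        | exact absurd rfl hij
        | exact p01
        | exact p02
        | exact p12
        | exact flipP p01
        | exact flipP p02
        | exact flipP p12)
    have k0 : k ∈ H := by simpa using mk_smul_eq_iff.1 (show k • ((1 : ↥(SU 3 F q)) : _ ⧸ H) = _ from hk 0)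
    have k1 : f⁻¹ * k * f ∈ H := mk_smul_eq_iff.1 (show k • ((f : ↥(SU 3 F q)) : _ ⧸ H) = _ from hk 1)
    have k2 : g'⁻¹ * k * g ∈ H := mk_smul_eq_iff.1 (show k • ((g : ↥(SU 3 F q)) : _ ⧸ H) = _ from hk 2)
    have hk1 : rep d k (some 1) = some 1 := by
      have := hfix _ k1
      rw [map_mul, map_mul, map_inv, Equiv.Perm.mul_apply, Equiv.Perm.mul_apply, rep_flip_none] at this
      exact ((rep d f).symm_apply_eq.1 this).trans rep_flip_none
    obtain ⟨b, hb⟩ := exists_tor_of_fix (hfix k k0) hk1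
    refine ⟨⟨Units.mk0 b hb.1, k, k0, by rwa [Units.val_mk0]⟩, fun x hx => ?_⟩
    rw [(show Tor d x b from hx).rep_eq hb]
    have hgn : ∀ w : uni d, rep d ((w : ↥(SU 3 F q)) * f) none = some w := fun w => by
      rw [map_mul, Equiv.Perm.mul_apply, rep_flip_none, rep_uni_some, mul_one]
    have := hfix _ k2
    rw [map_mul, map_mul, map_inv, Equiv.Perm.mul_apply, Equiv.Perm.mul_apply, hgn] at this
    exact ((rep d g').symm_apply_eq.1 this).trans (hgn _)
  choose bb hbb using key
  -- count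
  let r : Fˣ ⧸ A → Option {w : uni d // w ≠ 1} := fun c =>
    if hc : ∃ w, cls w = c then some hc.choose else none
  have hr : ∀ w, ∃ w₀, r (cls w) = some w₀ ∧ cls w₀ = cls w := fun w => by
    have hc : ∃ w', cls w' = cls w := ⟨w, rfl⟩
    exact ⟨hc.choose, dif_pos hc, hc.choose_spec⟩
  choose w₀ hw₀r hw₀ using hr
  let Φ : {w : uni d // w ≠ 1} → (Fˣ ⧸ A) × A := fun w => (cls w, bb (w₀ w) w (hw₀ w))
  have hΦ : Function.Injective Φ := by
    intro v w e
    simp only [Φ, Prod.mk.injEq] at e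
    obtain ⟨e1, e2⟩ := e
    have h0 : w₀ v = w₀ w := Option.some_injective _ (by rw [← hw₀r, ← hw₀r, e1])
    obtain ⟨x, hx⟩ := exists_tor d ((bb (w₀ v) v (hw₀ v) : A) : Fˣ).ne_zero
    have a1 := hbb _ _ (hw₀ v) x hx
    have a2 := hbb _ _ (hw₀ w) x (e2 ▸ hx)
    rw [h0, a2] at a1
    exact Subtype.ext (Option.some_injective _ a1.symm)
  have hle := Nat.card_le_card_of_injective Φ hΦ
  rw [Nat.card_prod, ← Subgroup.card_eq_card_quotient_mul_card_subgroup, Nat.card_units,
    Nat.card_eq_fintype_card (α := F), d.card] at hle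
  have h1 : Nat.card {w : uni d // w ≠ 1} = q ^ 3 - 1 := by
    rw [Nat.card_eq_fintype_card, Fintype.card_subtype_compl, Fintype.card_subtype_eq,
      ← Nat.card_eq_fintype_card, card_uni d]
  rw [h1] at hle
  have : q ^ 2 < q ^ 3 := Nat.pow_lt_pow_right (by omega) (by norm_num)
  have : 0 < q ^ 2 := by positivity
  omega

/-! ### The classification -/

theorem rep_conj_root {y : ↥(SU 3 F q)} (hy : rep d y none = none) {e : uni d} (he : coA e = 0) :
    ∃ e' : uni d, coA e' = 0 ∧ rep d (y * e * y⁻¹) = rep d (e' : ↥(SU 3 F q)) := by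
  obtain ⟨u, a, -, -, ha⟩ := exists_aff hy
  have h := (ha.mul (Aff.uni e)).mul ha.inv
  rw [he, mul_zero, add_zero, mul_one, mul_inv_cancel₀ ha.1, mul_div_cancel₀ _ ha.1,
    add_self d] at h
  exact exists_uni_of_aff h

/-- Whether the root group of a point lies in `H` does not depend on the representative. -/
theorem RootMem.congr (hcen : RepClosed d H) {g g' : ↥(SU 3 F q)} (h : RootMem d H g)
    (hp : rep d g' none = rep d g none) : RootMem d H g' := by
  intro e he
  have hy : rep d (g⁻¹ * g') none = none := by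
    rw [map_mul, map_inv, Equiv.Perm.mul_apply, hp]
    exact (rep d g).symm_apply_apply none
  obtain ⟨e', he', hrep⟩ := rep_conj_root hy he
  refine hcen (g * e' * g⁻¹) _ ?_ (h e' he')
  rw [show g' * e * g'⁻¹ = g * (g⁻¹ * g' * e * (g⁻¹ * g')⁻¹) * g⁻¹ by group, map_mul, map_mul,
    map_mul, map_mul, hrep]

theorem RootMem.smul {g x : ↥(SU 3 F q)} (h : RootMem d H g) (hx : x ∈ H) :
    RootMem d H (x * g) := fun e he => by
  simpa [mul_assoc] using mul_mem (mul_mem hx (h e he)) (inv_mem hx)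

theorem rep_uni_flip (w : uni d) :
    rep d ((w : ↥(SU 3 F q)) * flipSU d) none = some w := by
  rw [map_mul, Equiv.Perm.mul_apply, rep_flip_none, rep_uni_some, mul_one]

theorem rootMem_comap (w g : ↥(SU 3 F q)) :
    RootMem d (H.comap (MulAut.conj w).toMonoidHom) g ↔ RootMem d H (w * g) := by
  simp [RootMem, mul_assoc]

theorem repClosed_comap (hcen : RepClosed d H) (w : ↥(SU 3 F q)) :
    RepClosed d (H.comap (MulAut.conj w).toMonoidHom) := fun x y hxy hx =>
  hcen _ _ (show rep d (w * x * w⁻¹) = rep d (w * y * w⁻¹) by simp [map_mul, hxy])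
    (show w * x * w⁻¹ ∈ H from hx)

/-- No binary proper subgroup contains the root groups of the two base points. -/
theorem not_isBinary_of_flip (hq : 4 ≤ q) (hcen : RepClosed d H) (htop : H ≠ ⊤)
    (h0 : RootMem d H 1) (hf : RootMem d H (flipSU d)) : ¬ IsBinary H := by
  obtain ⟨x, k, hx, hk, hax⟩ := exists_kap_mem hcen hq h0 hf
  by_cases hW : ∀ p, p ∈ trSet d H
  · refine absurd (eq_top_iff.2 ?_) htop
    rw [← closure_eq_top d (by omega)]
    exact sup_le (fun u hu => (uni_mem_iff hcen h0 ⟨u, hu⟩).2 (hW _))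
      (Subgroup.zpowers_le.2 (flip_mem hcen h0 hf))
  · push Not at hW
    obtain ⟨p, hp⟩ := hW
    have add : ∀ {a b}, a ∈ trSet d H → b ∈ trSet d H → a + b ∈ trSet d H := by
      rintro a b ⟨y, hy, hay⟩ ⟨z, hz, haz⟩
      have h := hay.mul haz
      rw [one_mul, one_mul] at h
      exact ⟨_, mul_mem hy hz, h⟩
    have claim : ∀ y w, RootMem d H y → rep d y none = some w → coA w ∈ trSet d H := by
      intro y w hy hyw
      have h2 : RootMem d (H.comap (MulAut.conj (w : ↥(SU 3 F q))).toMonoidHom) (flipSU d) :=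
        (rootMem_comap _ _).2 (hy.congr hcen (by rw [rep_uni_flip, hyw]))
      have h1 : RootMem d (H.comap (MulAut.conj (w : ↥(SU 3 F q))).toMonoidHom) 1 := by
        rw [rootMem_comap, mul_one]
        exact h0.congr hcen (by rw [rep_uni_none, map_one]; rfl)
      obtain ⟨x', k', hx', hk', hax'⟩ := exists_kap_mem (repClosed_comap hcen _) hq h1 h2
      have hx'' : (w : ↥(SU 3 F q)) * x' * (w : ↥(SU 3 F q))⁻¹ ∈ H := hx'
      have ha'' := hax'.conj w
      rw [zero_add] at ha''
      have h := ((hax.mul ha'').mul hax.inv).mul ha''.inv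
      have e1 : k * k' * k⁻¹ = k' := by field_simp [hax.1]
      rw [zero_add, zero_div, mul_zero, add_zero, e1, mul_inv_cancel₀ hax'.1,
        mul_div_cancel₀ _ hax'.1,
        show k * ((1 + k') * coA w) + (1 + k') * coA w = (1 + k) * ((1 + k') * coA w) by ring] at h
      exact (one_add_mul_mem_iff hx'' ha'' hk' _).1 ((one_add_mul_mem_iff hx hax hk _).1
        ⟨_, mul_mem (mul_mem (mul_mem hx hx'') (inv_mem hx)) (inv_mem hx''), h⟩)
    refine not_isBinary_of_scalar hcen h0 hx hax hk hp fun u hu y hy hyu => ?_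
    cases hw : rep d y none with
    | none => rfl
    | some w =>
      have h1 := claim _ w (by simpa using h0.smul hy) hw
      have h2 := claim _ (u⁻¹ * w) (by simpa using h0.smul hyu) (by
        rw [map_mul, map_mul, Equiv.Perm.mul_apply, Equiv.Perm.mul_apply, rep_uni_none, hw,
          ← Subgroup.coe_inv, rep_uni_some])
      rw [coA_mul, coA_inv] at h2
      refine absurd ?_ hu
      have := add h2 h1
      rwa [add_assoc, add_self d, add_zero] at this

/-- A binary proper subgroup which contains, with each transvection, its root group, is the root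
group of one point. -/
theorem mem_iff_root (hq : 4 ≤ q) (hcen : RepClosed d H) (hbin : IsBinary H) (htop : H ≠ ⊤)
    (h0 : RootMem d H 1) (x : ↥(SU 3 F q)) :
    x ∈ H ↔ ∃ e : uni d, coA e = 0 ∧ rep d x = rep d (e : ↥(SU 3 F q)) := by
  refine ⟨fun hx => ?_, fun ⟨e, he, hr⟩ => hcen _ _ hr.symm (by simpa using h0 e he)⟩
  by_cases hC : ∀ g, RootMem d H g → rep d g none = none
  · have hfix : ∀ y ∈ H, rep d y none = none := fun y hy => hC _ (by simpa using h0.smul hy)
    by_cases hk : ∀ y ∈ H, ∀ v k, Aff d y v k → k = 1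
    · obtain ⟨u, a, -, -, ha⟩ := exists_aff (hfix x hx)
      obtain ⟨e, -, he⟩ := exists_uni_of_aff (hk x hx _ _ ha ▸ ha)
      refine ⟨e, ?_, he⟩
      by_contra hne
      exact not_isBinary_of_translation hq hcen hfix hk (hcen _ _ he hx) hne hbin
    · push Not at hk
      obtain ⟨y, hy, v, k, ha, hk⟩ := hk
      exfalso
      by_cases hW : ∀ p, p ∈ trSet d H
      · exact not_isBinary_of_borel hq hcen hfix (fun u => (uni_mem_iff hcen h0 u).2 (hW _)) hbin
      · push Not at hW
        obtain ⟨p, hp⟩ := hW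
        exact not_isBinary_of_scalar hcen h0 hy ha hk hp (fun _ _ z hz _ => hfix z hz) hbin
  · push Not at hC
    obtain ⟨g, hg, hgn⟩ := hC
    exfalso
    obtain ⟨w, hw⟩ := Option.ne_none_iff_exists'.1 hgn
    set c := (MulAut.conj (w : ↥(SU 3 F q))) with hc
    refine not_isBinary_of_flip hq (H := H.comap c.toMonoidHom) (repClosed_comap hcen _) ?_ ?_
      ((rootMem_comap _ _).2 (hg.congr hcen (by rw [rep_uni_flip, hw]))) ?_
    · intro h
      refine htop (eq_top_iff.2 fun y _ => ?_)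
      have : c.symm y ∈ H.comap c.toMonoidHom := by rw [h]; trivial
      simpa using this
    · rw [rootMem_comap, mul_one]
      exact h0.congr hcen (by rw [rep_uni_none, map_one]; rfl)
    · rw [show H.comap c.toMonoidHom = H.map c.symm.toMonoidHom by
        ext y; rw [Subgroup.mem_map_equiv]; simp]
      exact hbin.map c.symm

end CfsgLib.BinaryOneClass
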