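import Cfsg.Agent.BinaryOneClass.Unitary
import Cfsg.Agent.BinaryOneClass.Fix
import Cfsg.Agent.BinaryOneClass.Transport
import Cfsg.Agent.BinarySuzuki.Main

/-!
Binary coset actions of `PSU₃(2ⁿ)`, stabilisers of even order.
-/

set_option autoImplicit false
set_option linter.unusedSectionVars false

namespace CfsgLib.BinaryOneClass

open Cfsg CfsgLib.Unitary CfsgLib.UnitaryThree CfsgLib.RankOneClassify.Model CfsgLib.BinaryPSL

variable {F : Type*} [Field F] [Fintype F] {n : ℕ} {d : Data F (2 ^ n)}
variable {G : Type*} [Group G] [Finite G] {π : ↥(SU 3 F (2 ^ n)) →* G}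

theorem mem_center_uni {x : ↥(SU 3 F (2 ^ n))} :
    x ∈ (Subgroup.center (uni d)).map (uni d).subtype ↔ ∃ e : uni d, coA e = 0 ∧ (e : ↥(SU 3 F (2 ^ n))) = x :=
  ⟨fun ⟨e, he, h⟩ => ⟨e, (mem_center_iff e).1 he, h⟩,
    fun ⟨e, he, h⟩ => ⟨e, (mem_center_iff e).2 he, h⟩⟩

variable (hπ : Function.Surjective π) (hk : ∀ x y, π x = π y ↔ rep d x = rep d y)

include hk in
theorem injOn_uni : Set.InjOn π (uni d) := by
  intro x hx y hy h
  have h' := (hk x y).1 h
  have : rep d ((⟨x, hx⟩⁻¹ * ⟨y, hy⟩ : uni d) : ↥(SU 3 F (2 ^ n))) = 1 := by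
    rw [Subgroup.coe_mul, Subgroup.coe_inv, map_mul, map_inv, h', inv_mul_cancel]
  exact congrArg Subtype.val (inv_mul_eq_one.1 (rep_uni_eq_one_iff.1 this))

include hπ hk in
theorem exists_sylow_center_eq (hn : 1 ≤ n) (H : Subgroup G) :
    (∃ Q : Sylow 2 G, H = (Subgroup.center (Q : Subgroup G)).map (Q : Subgroup G).subtype) ↔
      ∃ g : G, H = (((Subgroup.center (uni d)).map (uni d).subtype).map π).map
        (MulAut.conj g).toMonoidHom := by
  haveI : Fact (Nat.Prime 2) := ⟨Nat.prime_two⟩
  obtain ⟨P, hP⟩ := exists_sylow_eq_uni n hn d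
  rw [exists_sylow_center_iff 2 (P.mapSurjective hπ)]
  have e : ((Subgroup.center ((P.mapSurjective hπ : Sylow 2 G) : Subgroup G)).map
      ((P.mapSurjective hπ : Sylow 2 G) : Subgroup G).subtype) =
      ((Subgroup.center (uni d)).map (uni d).subtype).map π := by
    rw [← hP]
    exact center_map_subtype π (P : Subgroup _) (hP ▸ injOn_uni hk)
  rw [e]

include hπ hk in
/-- The root group is binary. -/
theorem isBinary_root : IsBinary (((Subgroup.center (uni d)).map (uni d).subtype).map π) := by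
  set Z := ((Subgroup.center (uni d)).map (uni d).subtype).map π with hZ
  have hmem : ∀ z, z ∈ Z ↔ ∃ e : uni d, coA e = 0 ∧ π e = z := fun z => by
    rw [hZ, Subgroup.mem_map]
    constructor
    · rintro ⟨x, hx, rfl⟩
      obtain ⟨e, he, rfl⟩ := mem_center_uni.1 hx
      exact ⟨e, he, rfl⟩
    · rintro ⟨e, he, rfl⟩
      exact ⟨_, mem_center_uni.2 ⟨e, he, rfl⟩, rfl⟩
  -- a nontrivial element fixes one point
  have hfix : ∀ (e : uni d), π e ≠ 1 → ∀ p, rep d e p = p → p = none := by
    intro e he p hp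
    cases p with
    | none => rfl
    | some w =>
      rw [rep_uni_some] at hp
      exact absurd (by rw [(mul_eq_right.1 (Option.some_injective _ hp) : e = 1)]; exact map_one π) he
  have hnorm : ∀ a, rep d a none = none → π a ∈ Subgroup.normalizer (Z : Set G) := by
    intro a ha
    have h1 : Z.map (MulAut.conj (π a)).toMonoidHom ≤ Z := by
      rintro _ ⟨z, hz, rfl⟩
      obtain ⟨e, he, rfl⟩ := (hmem z).1 hz
      obtain ⟨e', he', hr⟩ := rep_conj_root ha he
      refine (hmem _).2 ⟨e', he', ?_⟩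
      rw [← (hk _ _).2 hr]
      simp
    have h2 : Z.map (MulAut.conj (π a)).toMonoidHom = Z :=
      Subgroup.eq_of_le_of_card_ge h1
        (Subgroup.card_map_of_injective (K := Z) (f := (MulAut.conj (π a)).toMonoidHom)
          (MulAut.conj (π a)).injective).ge
    rw [Subgroup.mem_normalizer_iff]
    intro z
    conv_rhs => rw [← h2]
    exact (Subgroup.mem_map_iff_mem (f := (MulAut.conj (π a)).toMonoidHom)
      (MulAut.conj (π a)).injective).symm
  refine CfsgLib.BinarySuzuki.isBinary_of_ti ?_ ?_ ?_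
  · intro z hz
    obtain ⟨e, he, rfl⟩ := (hmem z).1 hz
    rw [← map_mul, ← Subgroup.coe_mul, show e * e = 1 from uni_ext (by rw [(sq_eq e).1, coA_one])
      (by rw [(sq_eq e).2, he, zero_pow (Nat.succ_ne_zero _), coB_one])]
    exact map_one π
  · intro g z hz hz1 hgz
    obtain ⟨e, he, rfl⟩ := (hmem z).1 hz
    obtain ⟨e', he', hee⟩ := (hmem _).1 hgz
    obtain ⟨a, rfl⟩ := hπ g
    rw [← map_inv, ← map_mul, ← map_mul, hk] at hee
    refine hnorm a (hfix e hz1 _ ?_)
    have h := congrArg (fun σ : Equiv.Perm _ => σ none) hee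
    simp only [rep_uni_none, map_mul, map_inv, Equiv.Perm.mul_apply] at h
    exact (Equiv.Perm.eq_inv_iff_eq.1 h).symm
  · intro g x y hx hx1 hy hy1 hxy
    obtain ⟨e, he, rfl⟩ := (hmem x).1 hx
    obtain ⟨e', he', hee⟩ := (hmem _).1 hy
    obtain ⟨a, rfl⟩ := hπ g
    have hy' : y = π (a * e' * a⁻¹) := by
      rw [map_mul, map_mul, map_inv, hee]; group
    refine hnorm a (hfix e hx1 _ ?_)
    have hc : rep d (e * (a * e' * a⁻¹)) = rep d (a * e' * a⁻¹ * e) := (hk _ _).1 (by
      rw [map_mul π (e : ↥(SU 3 F (2 ^ n))), map_mul π _ (e : ↥(SU 3 F (2 ^ n))), ← hy']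
      exact hxy.eq)
    have hy0 : rep d (a * e' * a⁻¹) (rep d a none) = rep d a none := by
      simp [rep_uni_none]
    have h := congrArg (fun σ : Equiv.Perm _ => σ (rep d a none)) hc
    simp only [map_mul (rep d) (e : ↥(SU 3 F (2 ^ n))), map_mul (rep d) _ (e : ↥(SU 3 F (2 ^ n))),
      Equiv.Perm.mul_apply, hy0] at h
    -- the image point is fixed by the conjugate, hence equals the image of the base point
    have h' : rep d (e' : ↥(SU 3 F (2 ^ n))) ((rep d a).symm (rep d e (rep d a none))) =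
        (rep d a).symm (rep d e (rep d a none)) := by
      rw [Equiv.eq_symm_apply]
      simpa [map_mul, map_inv] using h.symm
    have hne : π e' ≠ 1 := fun e1 => hy1 (by rw [hy', map_mul, map_mul, e1, mul_one, map_inv, mul_inv_cancel])
    exact (Equiv.symm_apply_eq _).1 (hfix e' hne _ h')

include hπ hk in
theorem isBinary_iff_center [IsSimpleGroup G] (hn : 2 ≤ n)
    (hone : ∀ s t : G, orderOf s = 2 → orderOf t = 2 → IsConj s t)
    (H : Subgroup G) (hH : H ≠ ⊤) (heven : Even (Nat.card H)) :
    IsBinary H ↔ ∃ P : Sylow 2 G,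
      H = (Subgroup.center (P : Subgroup G)).map (P : Subgroup G).subtype := by
  have hq : 4 ≤ 2 ^ n := le_trans (by norm_num) (Nat.pow_le_pow_right two_pos hn)
  rw [exists_sylow_center_eq hπ hk (by omega)]
  constructor
  · intro hbin
    obtain ⟨z, hzH, hz⟩ := exists_orderOf_two_mem heven
    -- the involution of a transvection
    set e₀ : uni d := zel d 1 (one_pow _) with he₀
    have hord : ∀ {e : uni d}, coA e = 0 → e ≠ 1 → ∀ a, orderOf (π (a * e * a⁻¹)) = 2 := by
      intro e he he1 a
      rw [map_mul, map_mul, map_inv,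
        show π a * π e * (π a)⁻¹ = MulAut.conj (π a) (π e) from rfl, MulEquiv.orderOf_eq]
      refine orderOf_eq_prime ?_ fun h => he1 ?_
      · rw [← map_pow, pow_two, ← Subgroup.coe_mul, show e * e = 1 from
          uni_ext (by rw [(sq_eq e).1, coA_one])
            (by rw [(sq_eq e).2, he, zero_pow (Nat.succ_ne_zero _), coB_one])]
        exact map_one π
      · exact Subtype.ext (injOn_uni hk e.2 (one_mem _) (h.trans (map_one π).symm))
    have h1 : orderOf (π (e₀ : ↥(SU 3 F (2 ^ n)))) = 2 := by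
      simpa using hord (coA_zel _ _) (zel_ne_one _ one_ne_zero) 1
    obtain ⟨g, hg⟩ := isConj_iff.1 (hone z _ hz h1)
    -- replace `H` by its conjugate containing this involution
    set K := H.map (MulAut.conj g).toMonoidHom with hK
    have hKbin : IsBinary K := hbin.map (MulAut.conj g)
    have hKeven : Even (Nat.card K) := by
      rwa [hK, Subgroup.card_map_of_injective (MulAut.conj g).injective]
    have hKtop : K ≠ ⊤ := fun h => hH (Subgroup.map_injective (f := (MulAut.conj g).toMonoidHom)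
      (MulAut.conj g).injective (by
        rw [← hK, h, Subgroup.map_top_of_surjective _ (MulAut.conj g).surjective]))
    have he₀K : π (e₀ : ↥(SU 3 F (2 ^ n))) ∈ K := hg ▸ Subgroup.mem_map_of_mem _ hzH
    have hroot : ∀ a (e : uni d), coA e = 0 → e ≠ 1 → π (a * e * a⁻¹) ∈ K →
        RootMem d (K.comap π) a := by
      intro a e he he1 hmem f hf
      rw [Subgroup.mem_comap]
      by_cases hf1 : f = 1
      · subst hf1
        simp
      · refine mem_of_commute hone hKbin hKeven (hord he he1 a) (hord hf hf1 a) ?_ hmem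
        simp only [map_mul, map_inv]
        refine Commute.conj ?_ (π a)
        rw [Commute, SemiconjBy, ← map_mul, ← map_mul, ← Subgroup.coe_mul, ← Subgroup.coe_mul,
          (mul_comm_iff e f).2 (by rw [he, hf])]
    have key := mem_iff_root hq (H := K.comap π)
      (fun x y h hx => by rw [Subgroup.mem_comap] at hx ⊢; rwa [← (hk x y).2 h])
      ((isBinary_comap_iff hπ K).2 hKbin)
      (fun h => hKtop (by
        rw [← Subgroup.map_comap_eq_self_of_surjective hπ K, h,
          Subgroup.map_top_of_surjective _ hπ]))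
      (hroot 1 e₀ (coA_zel _ _) (zel_ne_one _ one_ne_zero) (by simpa using he₀K))
    have hKeq : K = ((Subgroup.center (uni d)).map (uni d).subtype).map π := by
      ext y
      obtain ⟨x, rfl⟩ := hπ y
      have hx := key x
      rw [Subgroup.mem_comap] at hx
      rw [hx, Subgroup.mem_map]
      constructor
      · rintro ⟨e, he, hr⟩
        exact ⟨e, mem_center_uni.2 ⟨e, he, rfl⟩, ((hk _ _).2 hr).symm⟩
      · rintro ⟨_, hz, h⟩
        obtain ⟨e, he, rfl⟩ := mem_center_uni.1 hz
        exact ⟨e, he, ((hk _ _).1 h).symm⟩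
    refine ⟨g⁻¹, ?_⟩
    rw [← hKeq, hK]
    ext x
    simp [mul_assoc]
  · rintro ⟨g, rfl⟩
    exact (isBinary_root hπ hk).map (MulAut.conj g)

end CfsgLib.BinaryOneClass
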